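import Cfsg.Agent.SpecBC.OrthOrder
import Cfsg.Agent.Classical.OrthForms
import Cfsg.Agent.OrthGen.MatrixForm
import Cfsg.Agent.Forms.OmegaCrit
import Cfsg.Agent.Spectrum.Symplectic
import Cfsg.Agent.Linear.Symplectic

/-!
`PΩ_(2n+1)(q)` and `PSp_(2n)(q)` do not have the same element orders, `q` odd, `n ≥ 3`.
-/

namespace Cfsg.Agent.SpecBC

open Module QuadraticMap Cfsg.Agent.Classical

variable {F : Type*} [Field F] [Fintype F]

theorem bNondeg_sq (h2 : (2 : F) ≠ 0) : BNondeg (QuadraticMap.sq : QuadraticForm F F) := by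
  intro x hx
  have h := hx 1
  simp only [polar, QuadraticMap.sq_apply] at h
  ring_nf at h
  exact (mul_eq_zero.1 h).resolve_right h2

theorem card_level_odd (h2 : (2 : F) ≠ 0) (n : ℕ) :
    Nat.card {v // oddQF n F v = 1} = Fintype.card F ^ (2 * n) + Fintype.card F ^ n := by
  classical
  rw [card_level_congr (R := hypExt n (QuadraticMap.sq : QuadraticForm F F)) (oddEquiv n)
    (oddEquiv_spec n)]
  have h := card_level_hypExt (QuadraticMap.sq : QuadraticForm F F) n 1
  have hr : Nat.card {w : F // (QuadraticMap.sq : QuadraticForm F F) w = 1} = 2 := by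
    rw [Nat.card_eq_fintype_card, Fintype.card_subtype,
      show (Finset.univ.filter fun w : F => (QuadraticMap.sq : QuadraticForm F F) w = 1) = {1, -1} by
        ext w; simp [QuadraticMap.sq_apply, mul_self_eq_one_iff]]
    refine Finset.card_pair fun h => h2 ?_
    linear_combination h
  rw [hr, Nat.card_eq_fintype_card (α := F)] at h
  refine Nat.eq_of_mul_eq_mul_left (Fintype.card_pos (α := F)) ?_
  rw [pow_succ' (Fintype.card F) n] at h
  nlinarith [h]

theorem not_mem_spectrum_odd {p : ℕ} [Fact p.Prime] [CharP F p] (h2 : (2 : F) ≠ 0) {n : ℕ}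
    (hn : 3 ≤ n) : p * (Fintype.card F ^ (n - 1) + 1) ∉
      Set.range (orderOf : Cfsg.POmega F (Cfsg.quadFormOdd n F) → ℕ) := by
  rintro ⟨x, hx⟩
  obtain ⟨g, rfl⟩ := QuotientGroup.mk'_surjective _ x
  have hdvd : p * (Fintype.card F ^ (n - 1) + 1) ∣ orderOf g := hx ▸ orderOf_map_dvd _ g
  set N := p * (Fintype.card F ^ (n - 1) + 1)
  have hg0 : 0 < orderOf g := orderOf_pos g
  have horder : orderOf (g ^ (orderOf g / N)) = N := by
    rw [orderOf_pow, Nat.gcd_eq_right (Nat.div_dvd_of_dvd hdvd), Nat.div_div_self hdvd hg0.ne']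
  generalize g ^ (orderOf g / N) = z at horder
  have hfun : Cfsg.quadFormOdd n F = ⇑(oddQF n F) := funext fun v => (oddQF_apply n v).symm
  revert z
  rw [hfun]
  intro z horder
  have hmem := (Forms.mem_Omega_iff_matEquiv (oddQF n F) z.1).1 z.2
  have hB : BNondeg (oddQF n F) := by
    exact bNondeg_congr (oddEquiv n) (fun x => oddEquiv_spec n x) (bNondeg_hypExt n (bNondeg_sq h2))
  refine orderOf_ne_of_commutator (q := Fintype.card F) (p := p) Nat.card_eq_fintype_card h2 hn ?_ hB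
    (card_level_odd h2 n) hmem ?_
  · simp [Module.finrank_pi]; omega
  · rw [MulEquiv.orderOf_eq, Subgroup.orderOf_coe, horder]

theorem mem_spectrum_psp {p : ℕ} [Fact p.Prime] [CharP F p] (hp : p ≠ 2) {n : ℕ} (hn : 2 ≤ n) :
    p * (Fintype.card F ^ (n - 1) + 1) ∈ Set.range (orderOf : Cfsg.PSp n F → ℕ) := by
  classical
  obtain ⟨d, rfl⟩ : ∃ d, n = 1 + (d + 1) := ⟨n - 2, by omega⟩
  have hpp : p.Prime := Fact.out
  set N := Fintype.card F ^ (1 + (d + 1) - 1) + 1
  obtain ⟨t, ht⟩ := Spectrum.exists_torus_sp (F := F) (d := d + 1) (by omega) N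
    (Or.inr (by simp [N]))
  obtain ⟨u₀, hu₀⟩ := Spectrum.exists_unipotent (F := F) (p := p) (m := 1) (j := 0) le_rfl (by norm_num)
  rw [zero_add, pow_one] at hu₀
  have hu0pos : 0 < orderOf u₀ := orderOf_pos u₀
  set u := u₀ ^ (orderOf u₀ / p) with hu
  have huo : orderOf u = p := by
    rw [hu, orderOf_pow, Nat.gcd_eq_right (Nat.div_dvd_of_dvd hu₀), Nat.div_div_self hu₀ hu0pos.ne']
  set g := Spectrum.spBlock 1 (d + 1) (u, t) with hg
  refine ⟨QuotientGroup.mk' _ g, ?_⟩
  have hord : orderOf g = p * N := by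
    rw [hg, orderOf_injective _ (Spectrum.spBlock_injective _ _), Prod.orderOf, huo, ht]
    refine Nat.Coprime.lcm_eq_mul ((hpp.coprime_iff_not_dvd).2 fun h => ?_)
    obtain ⟨f, -, hf⟩ := FiniteField.card F p
    have h1 : p ∣ Fintype.card F ^ (1 + (d + 1) - 1) := by
      rw [hf]; exact dvd_pow (dvd_pow_self p f.ne_zero) (by omega)
    exact hpp.one_lt.ne' (Nat.dvd_one.1 ((Nat.dvd_add_right h1).1 h))
  refine Nat.dvd_antisymm (hord ▸ orderOf_map_dvd _ g) ?_
  have hi : ∀ i : ℕ, g ^ i ∈ Subgroup.center (Matrix.symplecticGroup (Fin (1 + (d + 1))) F) →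
      p * N ∣ i := by
    intro i hc
    haveI : NeZero (1 + (d + 1)) := ⟨by omega⟩
    obtain ⟨a, ha2, ha⟩ := Linear.Symp.center_scalar hc
    have hmat : (g ^ i).1 =
        a • (1 : Matrix (Fin (1 + (d + 1)) ⊕ Fin (1 + (d + 1))) (Fin (1 + (d + 1)) ⊕ Fin (1 + (d + 1))) F) := by
      refine Matrix.ext_of_mulVec_single fun l => ?_
      rw [show (g ^ i).1.mulVec (Pi.single l 1) = Linear.Symp.app (g ^ i) (Pi.single l 1) from rfl, ha,
        Matrix.smul_mulVec, Matrix.one_mulVec]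
    rw [hg, ← map_pow] at hmat
    have hmat' := (Matrix.reindexAlgEquiv F F (Spectrum.spBlockEquiv 1 (d + 1))).injective
      (hmat.trans (by rw [map_smul, map_one]) : _ =
        Matrix.reindexAlgEquiv F F (Spectrum.spBlockEquiv 1 (d + 1)) (a • 1))
    rw [← Matrix.fromBlocks_one, Matrix.fromBlocks_smul, Matrix.fromBlocks_inj] at hmat'
    have hu2 : u ^ (i * 2) = 1 := by
      apply Subtype.ext
      rw [pow_mul, pow_two, Submonoid.coe_mul]
      rw [show (u ^ i).1 = a • (1 : Matrix (Fin 1 ⊕ Fin 1) (Fin 1 ⊕ Fin 1) F) from hmat'.1,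
        smul_mul_smul_comm, Matrix.one_mul, ← pow_two, ha2, one_smul]
      rfl
    rw [← orderOf_dvd_iff_pow_eq_one, huo] at hu2
    have hpi : p ∣ i := ((Nat.Prime.dvd_mul hpp).1 hu2).resolve_right fun h =>
      hp ((Nat.prime_dvd_prime_iff_eq hpp Nat.prime_two).1 h)
    have hui : u ^ i = 1 := by rw [← orderOf_dvd_iff_pow_eq_one, huo]; exact hpi
    have ha1 : a = 1 := by
      have h := hmat'.1
      rw [show ((u, t) ^ i).1 = u ^ i from rfl, hui] at h
      have := congrFun (congrFun h (Sum.inl 0)) (Sum.inl 0)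
      simpa using this.symm
    have hti : t ^ i = 1 := by
      apply Subtype.ext
      rw [show (t ^ i).1 = a • (1 : Matrix (Fin (d + 1) ⊕ Fin (d + 1)) (Fin (d + 1) ⊕ Fin (d + 1)) F) from hmat'.2.2.2,
        ha1, one_smul]
      rfl
    rw [← hord, orderOf_dvd_iff_pow_eq_one, hg, ← map_pow, show (u, t) ^ i = 1 from Prod.ext hui hti, map_one]
  refine hi _ ?_
  rw [← QuotientGroup.eq_one_iff]
  exact (map_pow (QuotientGroup.mk' _) g _).trans (pow_orderOf_eq_one _)

theorem spectra_ne (hodd : Odd (Fintype.card F)) {n : ℕ} (hn : 3 ≤ n) :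
    Set.range (orderOf : Cfsg.POmega F (Cfsg.quadFormOdd n F) → ℕ) ≠
      Set.range (orderOf : Cfsg.PSp n F → ℕ) := by
  classical
  obtain ⟨p, hp⟩ := CharP.exists F
  haveI := Fact.mk (CharP.char_is_prime F p)
  have hp2 : p ≠ 2 := by
    rintro rfl
    obtain ⟨f, -, hf⟩ := FiniteField.card F 2
    rw [hf] at hodd
    exact (Nat.not_even_iff_odd.2 hodd) (Nat.even_pow.2 ⟨even_two, f.ne_zero⟩)
  have h2 : (2 : F) ≠ 0 := Ring.two_ne_zero (by rw [ringChar.eq F p]; exact hp2)
  intro h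
  exact not_mem_spectrum_odd h2 hn (h ▸ mem_spectrum_psp (F := F) hp2 (by omega : 2 ≤ n))

end Cfsg.Agent.SpecBC
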