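import Cfsg.Agent.SpecBC.OrthOrder
import Cfsg.Agent.Forms.Restrict
import Cfsg.Agent.Spectrum.Symplectic
import Cfsg.Agent.Forms.Symplectic

/-!
Exchanging symmetric and alternating forms through a commuting isometry without eigenvalues `±1`:
`(x, y) ↦ B (h x) y - B x (h y)`.
-/

set_option autoImplicit false

namespace Cfsg.Agent.SpecBC

open Module QuadraticMap Cfsg.Agent.Classical

universe u v

variable {F : Type u} [Field F]

/-- Some non-degenerate `d`-dimensional quadratic space has an isometry whose order `N` divides. -/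
def HasOrdO (F : Type u) [Field F] (d N : ℕ) : Prop :=
  ∃ Q : QuadraticForm F (Fin d → F), BNondeg Q ∧ ∃ g : OQ Q, N ∣ orderOf g

section Twist

variable {V : Type v} [AddCommGroup V] [Module F V] [FiniteDimensional F V]

/-- The twist of a bilinear form by `h`. -/
noncomputable def twist (B : LinearMap.BilinForm F V) (h : Module.End F V) :
    LinearMap.BilinForm F V :=
  B.compl₁₂ h LinearMap.id - B.compl₁₂ LinearMap.id h

theorem twist_apply (B : LinearMap.BilinForm F V) (h : Module.End F V) (x y : V) :
    twist B h x y = B (h x) y - B x (h y) := by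
  simp [twist]

theorem twist_invariant {B : LinearMap.BilinForm F V} {g h : Module.End F V}
    (hg : ∀ x y, B (g x) (g y) = B x y) (hc : Commute g h) (x y : V) :
    twist B h (g x) (g y) = twist B h x y := by
  have e : ∀ z, h (g z) = g (h z) := fun z => by
    rw [← Module.End.mul_apply, ← hc.eq, Module.End.mul_apply]
  rw [twist_apply, twist_apply, e, e, hg, hg]

theorem twist_nondeg {B : LinearMap.BilinForm F V} {h : Module.End F V}
    (hh : ∀ x y, B (h x) (h y) = B x y) (hB : ∀ x, (∀ y, B x y = 0) → x = 0)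
    (hfree : ∀ x, h (h x) = x → x = 0) {x : V} (hx : ∀ y, twist B h x y = 0) : x = 0 := by
  refine hfree x ?_
  have key : h (h x) - x = 0 := by
    refine hB _ fun y => ?_
    have hinj : Function.Injective h := by
      refine (injective_iff_map_eq_zero h).2 fun z hz => hB z fun w => ?_
      rw [← hh, hz, map_zero, LinearMap.zero_apply]
    obtain ⟨z, rfl⟩ := (LinearMap.injective_iff_surjective.1 hinj) y
    have hz := hx z
    rw [twist_apply] at hz
    rw [map_sub, LinearMap.sub_apply, hh]
    exact hz
  exact sub_eq_zero.1 key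

/-- An isometry of a symmetric form, commuting with a fixed point free `h`, seen in a symplectic
group. -/
theorem exists_symp_of_symm {B : LinearMap.BilinForm F V} (hB : ∀ x, (∀ y, B x y = 0) → x = 0)
    (hs : ∀ x y, B x y = B y x) {g h : Module.End F V} (hg : ∀ x y, B (g x) (g y) = B x y)
    (hh : ∀ x y, B (h x) (h y) = B x y) (hc : Commute g h)
    (hfree : ∀ x, h (h x) = x → x = 0) :
    ∃ (w : ℕ) (φ : Module.End F V ≃ₐ[F] Matrix (Fin w ⊕ Fin w) (Fin w ⊕ Fin w) F)
      (g' : Matrix.symplecticGroup (Fin w) F), finrank F V = 2 * w ∧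
      (g' : Matrix (Fin w ⊕ Fin w) (Fin w ⊕ Fin w) F) = φ g := by
  have hA : (twist B h).IsAlt := fun x => by
    rw [twist_apply, hs (h x), sub_self]
  have hnd : (twist B h).Nondegenerate := by
    refine ⟨fun x hx => twist_nondeg hh hB hfree hx,
      fun x hx => twist_nondeg hh hB hfree fun y => ?_⟩
    rw [← LinearMap.IsAlt.neg hA y x, hx, neg_zero]
  obtain ⟨w, b, -, -, -⟩ := Forms.exists_symplectic_basis hA hnd
  have hd : finrank F V = 2 * w := by
    rw [Module.finrank_eq_card_basis b]; simp; omega
  obtain ⟨e, he⟩ := Forms.exists_equiv_sympForm hA hnd hd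
  let φ := e.conjAlgEquiv F |>.trans LinearMap.toMatrixAlgEquiv'
  have happ : ∀ (f : Module.End F V) (z : Fin w ⊕ Fin w → F),
      (φ f).mulVec z = e (f (e.symm z)) := fun f z => by
    simp [φ, LinearMap.toMatrixAlgEquiv', LinearMap.toMatrix'_mulVec]
  refine ⟨w, φ, ⟨φ g, ?_⟩, hd, rfl⟩
  rw [Forms.mem_symplecticGroup_iff_sympForm]
  intro u v
  rw [happ, happ, he, twist_invariant hg hc, ← he, LinearEquiv.apply_symm_apply,
    LinearEquiv.apply_symm_apply]

/-- Transport to `Fin d → F`. -/
theorem hasOrdO_of_form {Q : QuadraticForm F V} (hQ : BNondeg Q) (g : OQ Q) :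
    HasOrdO F (finrank F V) (orderOf g) := by
  let e := (Module.finBasis F V).equivFun
  refine ⟨Q.comp e.symm.toLinearMap, fun x hx => ?_, OQCongr e (fun v => by simp) g, ?_⟩
  · apply e.symm.injective
    rw [map_zero]
    refine hQ _ fun y => ?_
    have := hx (e y)
    simpa [polar, map_add] using this
  · rw [MulEquiv.orderOf_eq]

/-- An isometry of an alternating form, commuting with a fixed point free `h`, seen in an
orthogonal group. -/
theorem hasOrdO_of_alt (h2 : (2 : F) ≠ 0) {A : LinearMap.BilinForm F V}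
    (hA : ∀ x, (∀ y, A x y = 0) → x = 0) (ha : A.IsAlt) {g h : Module.End F V}
    (hg : ∀ x y, A (g x) (g y) = A x y) (hh : ∀ x y, A (h x) (h y) = A x y) (hc : Commute g h)
    (hfree : ∀ x, h (h x) = x → x = 0) :
    HasOrdO F (finrank F V) (orderOf g) := by
  set B := twist A h with hB
  have hsymm : ∀ x y, B x y = B y x := fun x y => by
    rw [hB, twist_apply, twist_apply, ← LinearMap.IsAlt.neg ha y (h x),
      ← LinearMap.IsAlt.neg ha (h y) x]
    ring
  let Q : QuadraticForm F V := LinearMap.BilinMap.toQuadraticMap B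
  have hpol : ∀ x y, polar Q x y = 2 * B x y := fun x y => by
    rw [LinearMap.BilinMap.polar_toQuadraticMap, hsymm y x, two_mul]
  have hQ : BNondeg Q := fun x hx => twist_nondeg hh hA hfree fun y => by
    have := hx y
    rw [hpol] at this
    exact (mul_eq_zero.1 this).resolve_left h2
  have hinj : Function.Injective g := by
    refine (injective_iff_map_eq_zero g).2 fun z hz => hA z fun w => ?_
    rw [← hg, hz, map_zero, LinearMap.zero_apply]
  have hmem : LinearEquiv.ofInjectiveEndo g hinj ∈ OQ Q := fun v => by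
    show B (g v) (g v) = B v v
    rw [hB, twist_invariant hg hc]
  have hord : orderOf g = orderOf (⟨_, hmem⟩ : OQ Q) := by
    rw [← orderOf_injective (toEnd Q) toEnd_injective]
    congr 1
  rw [hord]
  exact hasOrdO_of_form hQ _

end Twist

section Split

variable {V : Type v} [AddCommGroup V] [Module F V] [FiniteDimensional F V]

/-- The moved part `range (h - 1)` of an isometry of order prime to the characteristic. -/
theorem range_sub_one_facts {B : LinearMap.BilinForm F V} (hB : ∀ x, (∀ y, B x y = 0) → x = 0)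
    {h : Module.End F V} (hh : ∀ x y, B (h x) (h y) = B x y) {m : ℕ} (hm : h ^ m = 1)
    (hm0 : (m : F) ≠ 0) :
    IsCompl (LinearMap.range (h - 1)) (LinearMap.ker (h - 1)) ∧
      (∀ x ∈ LinearMap.range (h - 1), h x = x → x = 0) ∧
      ∀ x ∈ LinearMap.range (h - 1),
        (∀ y ∈ LinearMap.range (h - 1), B x y = 0) → x = 0 := by
  have mem0 : ∀ {x : V}, x ∈ LinearMap.ker (h - 1) ↔ h x = x := fun {x} => by
    simp [LinearMap.mem_ker, sub_eq_zero]
  have hdisj : ∀ x ∈ LinearMap.range (h - 1), h x = x → x = 0 := by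
    rintro x ⟨y, rfl⟩ hfix
    set d := (h - 1) y with hd
    have hty : h y = y + d := by rw [hd]; simp
    have hi : ∀ i : ℕ, (h ^ i) y = y + i • d := by
      intro i
      induction i with
      | zero => simp
      | succ i ih =>
        rw [pow_succ', Module.End.mul_apply, ih, map_add, map_nsmul, hfix, hty, add_nsmul, one_nsmul]
        abel
    have e := hi m
    rw [hm, Module.End.one_apply, left_eq_add, ← Nat.cast_smul_eq_nsmul F, smul_eq_zero] at e
    exact e.resolve_left hm0
  have hd : Disjoint (LinearMap.range (h - 1)) (LinearMap.ker (h - 1)) := by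
    rw [Submodule.disjoint_def]
    exact fun x hx hx' => hdisj x hx (mem0.1 hx')
  have hcompl : IsCompl (LinearMap.range (h - 1)) (LinearMap.ker (h - 1)) := by
    refine ⟨hd, codisjoint_iff.2 (Submodule.eq_top_of_disjoint _ _ ?_ hd)⟩
    rw [LinearMap.finrank_range_add_finrank_ker]
  refine ⟨hcompl, hdisj, fun x hx hxy => hB x fun v => ?_⟩
  obtain ⟨a, ha, b, hb, rfl⟩ := Submodule.mem_sup.1 (hcompl.sup_eq_top ▸ Submodule.mem_top : v ∈ _)
  rw [map_add, hxy a ha, zero_add]
  obtain ⟨z, rfl⟩ := hx
  rw [LinearMap.sub_apply, Module.End.one_apply, map_sub, LinearMap.sub_apply]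
  conv_lhs => enter [1, 2]; rw [← mem0.1 hb]
  rw [hh, sub_self]

omit [FiniteDimensional F V] in
theorem no_sq_fixed {h : Module.End F V} (h2 : (2 : F) ≠ 0) {m : ℕ} (hm : h ^ m = 1) (hodd : Odd m)
    {x : V} (hfree : h x = x → x = 0) (hx : h (h x) = x) : x = 0 := by
  refine hfree ?_
  have key : ∀ i : ℕ, (h ^ (2 * i)) x = x := fun i => by
    induction i with
    | zero => simp
    | succ i ih => rw [Nat.mul_succ, pow_add, Module.End.mul_apply, pow_two, Module.End.mul_apply, hx, ih]
  obtain ⟨c, rfl⟩ := hodd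
  have e : (h ^ (2 * c + 1)) x = x := by rw [hm]; rfl
  rwa [pow_succ', Module.End.mul_apply, key] at e

theorem mem_range_of_commute {g h : Module.End F V} (hc : Commute g h) {x : V}
    (hx : x ∈ LinearMap.range (h - 1)) : g x ∈ LinearMap.range (h - 1) := by
  obtain ⟨y, rfl⟩ := hx
  exact ⟨g y, by rw [← Module.End.mul_apply, ← (hc.sub_right (Commute.one_right g)).eq,
    Module.End.mul_apply]⟩

theorem mem_ker_of_commute {g h : Module.End F V} (hc : Commute g h) {x : V}
    (hx : x ∈ LinearMap.ker (h - 1)) : g x ∈ LinearMap.ker (h - 1) := by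
  rw [LinearMap.mem_ker] at hx ⊢
  rw [← Module.End.mul_apply, ← (hc.sub_right (Commute.one_right g)).eq, Module.End.mul_apply, hx,
    map_zero]

/-- Two endomorphisms agreeing on complementary subspaces are equal. -/
theorem eq_of_isCompl {p q : Submodule F V} (hpq : IsCompl p q) {f f' : Module.End F V}
    (h1 : ∀ x ∈ p, f x = f' x) (h2 : ∀ x ∈ q, f x = f' x) : f = f' := by
  refine LinearMap.ext fun v => ?_
  obtain ⟨a, ha, b, hb, rfl⟩ := Submodule.mem_sup.1 (hpq.sup_eq_top ▸ Submodule.mem_top : v ∈ _)
  rw [map_add, map_add, h1 a ha, h2 b hb]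

end Split

end Cfsg.Agent.SpecBC
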